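import Mathlib
import Cfsg.Agent.Lib.Transfer.Flavell

/-!
# The odd-product graph on a class of involutions

If `G` is a finite group and `t` an involution with `⟨t^G⟩ = G`, then the graph on `t^G` joining
`x, y` when `x y` has odd order is connected.  The proof applies Flavell's theorem to `⟨t⟩` and
induction on `|G|`; when `t` lies in a unique maximal subgroup, `G` is dihedral of twice odd order.
-/

set_option autoImplicit false
set_option linter.style.haveILetI false
set_option linter.unusedSectionVars false

universe u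

namespace Cfsg.Agent.Lib.OddGraph.Basic

section Defs

variable {G : Type*} [Group G]

/-- The edge relation: two conjugates of `t` whose product has odd order. -/
def Ed (t x y : G) : Prop := IsConj t x ∧ IsConj t y ∧ Odd (orderOf (x * y))

/-- Being joined to `t` by a path of edges. -/
def Conn (t x : G) : Prop := Relation.ReflTransGen (Ed t) t x

theorem orderOf_conj_mul (g a : G) : orderOf (g * a * g⁻¹) = orderOf a :=
  (SemiconjBy.orderOf_eq g (x := a) (y := g * a * g⁻¹) (by
    show g * a = g * a * g⁻¹ * g
    group)).symm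

theorem Ed.symm {t x y : G} (h : Ed t x y) : Ed t y x := by
  refine ⟨h.2.1, h.1, ?_⟩
  have e : y * x = y * (x * y) * y⁻¹ := by group
  rw [e, orderOf_conj_mul]
  exact h.2.2

theorem Ed.conj {t x y : G} (g : G) (h : Ed t x y) : Ed t (g * x * g⁻¹) (g * y * g⁻¹) := by
  refine ⟨h.1.trans (isConj_iff.2 ⟨g, rfl⟩), h.2.1.trans (isConj_iff.2 ⟨g, rfl⟩), ?_⟩
  have e : g * x * g⁻¹ * (g * y * g⁻¹) = g * (x * y) * g⁻¹ := by group
  rw [e, orderOf_conj_mul]
  exact h.2.2

theorem path_symm {t x y : G} (h : Relation.ReflTransGen (Ed t) x y) :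
    Relation.ReflTransGen (Ed t) y x := by
  induction h with
  | refl => exact .refl
  | tail _ h2 ih => exact Relation.ReflTransGen.head h2.symm ih

theorem path_conj {t x y : G} (g : G) (h : Relation.ReflTransGen (Ed t) x y) :
    Relation.ReflTransGen (Ed t) (g * x * g⁻¹) (g * y * g⁻¹) :=
  Relation.ReflTransGen.lift (fun a => g * a * g⁻¹) (fun _ _ h => h.conj g) _ _ h

theorem Conn.isConj {t x : G} (h : Conn t x) : IsConj t x := by
  induction h with
  | refl => exact IsConj.refl t
  | tail _ h2 _ => exact h2.2.1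

/-- An element of the component of `t` normalizes the component. -/
theorem Conn.conj_conn {t x z : G} (hx : Conn t x) (hz : Conn t z) : Conn t (x * z * x⁻¹) := by
  have h1 : Relation.ReflTransGen (Ed t) (x * x * x⁻¹) (x * t * x⁻¹) :=
    path_conj x (path_symm hx)
  have h2 : Relation.ReflTransGen (Ed t) (x * t * x⁻¹) (x * z * x⁻¹) := path_conj x hz
  have e : x * x * x⁻¹ = x := by group
  rw [e] at h1
  exact (Relation.ReflTransGen.trans hx h1).trans h2

theorem inv_eq_of_isConj {t x : G} (ht : orderOf t = 2) (h : IsConj t x) : x⁻¹ = x := by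
  obtain ⟨c, rfl⟩ := isConj_iff.1 h
  have h2 : t * t = 1 := by
    have := pow_orderOf_eq_one t
    rwa [ht, pow_two] at this
  have ht' : t⁻¹ = t := inv_eq_of_mul_eq_one_left h2
  simp [mul_assoc, ht']

/-- If the component generates, it is the whole class. -/
theorem conn_of_closure {t : G} (ht : orderOf t = 2)
    (hc : Subgroup.closure {x | Conn t x} = ⊤) (x : G) (hx : IsConj t x) : Conn t x := by
  have key : ∀ g ∈ Subgroup.closure {x | Conn t x},
      ∀ z, Conn t z → Conn t (g * z * g⁻¹) ∧ Conn t (g⁻¹ * z * g) := by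
    intro g hg
    induction hg using Subgroup.closure_induction with
    | mem a ha =>
      intro z hz
      have e : a⁻¹ = a := inv_eq_of_isConj ht (Conn.isConj ha)
      refine ⟨Conn.conj_conn ha hz, ?_⟩
      have := Conn.conj_conn ha hz
      rw [e] at this ⊢
      exact this
    | one => intro z hz; simpa using hz
    | mul a b _ _ iha ihb =>
      intro z hz
      constructor
      · have := (iha _ (ihb z hz).1).1
        have e : a * (b * z * b⁻¹) * a⁻¹ = a * b * z * (a * b)⁻¹ := by group
        rwa [e] at this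
      · have := (ihb _ (iha z hz).2).2
        have e : b⁻¹ * (a⁻¹ * z * a) * b = (a * b)⁻¹ * z * (a * b) := by group
        rwa [e] at this
    | inv a _ iha =>
      intro z hz
      constructor
      · have := (iha z hz).2
        simpa using this
      · have := (iha z hz).1
        simpa using this
  obtain ⟨c, rfl⟩ := isConj_iff.1 hx
  exact (key c (by rw [hc]; trivial) t .refl).1

theorem Conn.map {H : Subgroup G} {t' x : H} (h : Conn t' x) : Conn (t' : G) (x : G) := by
  refine Relation.ReflTransGen.lift (Subtype.val : H → G) ?_ _ _ h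
  intro a b hab
  refine ⟨H.subtype.map_isConj hab.1, H.subtype.map_isConj hab.2.1, ?_⟩
  have : orderOf ((a : G) * (b : G)) = orderOf (a * b) := by
    rw [← Subgroup.orderOf_coe (a * b)]
    rfl
  rw [this]
  exact hab.2.2

/-- In a group generated by two conjugate involutions the product has odd order, and in fact every
conjugate of `t` has odd product with `t`. -/
theorem dihedral_step {t s : G} (ht : orderOf t = 2) (hs : IsConj t s)
    (hgen : Subgroup.closure ({t, s} : Set G) = ⊤) (x : G) (hx : IsConj t x) :
    Odd (orderOf (t * x)) := by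
  have htt : t * t = 1 := by
    have := pow_orderOf_eq_one t
    rwa [ht, pow_two] at this
  have hss : s * s = 1 := by
    obtain ⟨c, rfl⟩ := isConj_iff.1 hs
    have : c * t * c⁻¹ * (c * t * c⁻¹) = c * (t * t) * c⁻¹ := by group
    rw [this, htt]; group
  have htinv : t⁻¹ = t := inv_eq_of_mul_eq_one_left htt
  have hsinv : s⁻¹ = s := inv_eq_of_mul_eq_one_left hss
  obtain ⟨r, hr⟩ : ∃ r, r = t * s := ⟨_, rfl⟩
  have hsr : s = t * r := by rw [hr, ← mul_assoc, htt, one_mul]
  have hrinv : r⁻¹ = s * t := by rw [hr, mul_inv_rev, htinv, hsinv]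
  have htr : t * r * t⁻¹ = r⁻¹ := by
    rw [htinv, hrinv, hr, ← mul_assoc, htt, one_mul]
  have hsrs : s * r * s⁻¹ = r⁻¹ := by
    rw [hsinv, hrinv, hr, mul_assoc, mul_assoc, hss, mul_one]
  -- the key property, for all `g`
  have key : ∀ g ∈ Subgroup.closure ({t, s} : Set G),
      (∃ e : ℤ, (e = 1 ∨ e = -1) ∧ g * r * g⁻¹ = r ^ e) ∧
        ∃ m : ℤ, g * t * g⁻¹ = t * r ^ (2 * m) := by
    intro g hg
    induction hg using Subgroup.closure_induction with
    | mem a ha =>
      rcases ha with rfl | ha
      · refine ⟨⟨-1, Or.inr rfl, by rw [htr]; simp⟩, 0, ?_⟩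
        simp [htinv, htt]
      · rw [Set.mem_singleton_iff] at ha
        subst ha
        refine ⟨⟨-1, Or.inr rfl, by rw [hsrs]; simp⟩, 1, ?_⟩
        rw [hsinv]
        have e : r ^ ((2 : ℤ) * 1) = r * r := by
          rw [mul_one, zpow_two]
        rw [e, hsr]
        have : t * r * t * (t * r) = t * r * (t * t) * r := by group
        rw [this, htt]
        group
    | one => exact ⟨⟨1, Or.inl rfl, by simp⟩, 0, by simp⟩
    | mul a b _ _ iha ihb =>
      obtain ⟨⟨e1, he1, h1⟩, m1, h2⟩ := iha
      obtain ⟨⟨e2, he2, h3⟩, m2, h4⟩ := ihb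
      have hpow : ∀ k : ℤ, a * r ^ k * a⁻¹ = r ^ (e1 * k) := by
        intro k
        rw [← conj_zpow, h1, zpow_mul]
      refine ⟨⟨e1 * e2, ?_, ?_⟩, m1 + e1 * m2, ?_⟩
      · rcases he1 with rfl | rfl <;> rcases he2 with rfl | rfl <;> simp
      · have : a * b * r * (a * b)⁻¹ = a * (b * r * b⁻¹) * a⁻¹ := by group
        rw [this, h3, hpow]
      · have : a * b * t * (a * b)⁻¹ = a * (b * t * b⁻¹) * a⁻¹ := by group
        rw [this, h4]
        have h5 : a * (t * r ^ (2 * m2)) * a⁻¹ = (a * t * a⁻¹) * (a * r ^ (2 * m2) * a⁻¹) := by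
          group
        rw [h5, h2, hpow, mul_assoc, ← zpow_add]
        congr 2
        ring
    | inv a _ iha =>
      obtain ⟨⟨e1, he1, h1⟩, m1, h2⟩ := iha
      have h3 : a⁻¹ * r * a = r ^ e1 := by
        rcases he1 with rfl | rfl
        · have h4 : a * r * a⁻¹ = r := by simpa using h1
          have : a⁻¹ * (a * r * a⁻¹) * a = r := by group
          rw [h4] at this
          simpa using this
        · have h4 : a * r * a⁻¹ = r⁻¹ := by simpa using h1
          have h5 : a⁻¹ * (a * r * a⁻¹) * a = r := by group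
          rw [h4] at h5
          have h6 : (a⁻¹ * r⁻¹ * a)⁻¹ = a⁻¹ * r * a := by group
          rw [← h6, h5]
          simp
      have hpow : ∀ k : ℤ, a⁻¹ * r ^ k * a = r ^ (e1 * k) := by
        intro k
        have := conj_zpow (a := a⁻¹) (b := r) (i := k)
        rw [inv_inv] at this
        rw [← this, h3, zpow_mul]
      refine ⟨⟨e1, he1, by rw [inv_inv]; exact h3⟩, -(e1 * m1), ?_⟩
      rw [inv_inv]
      have h4 : a⁻¹ * (a * t * a⁻¹) * a = t := by group
      rw [h2] at h4
      have h5 : a⁻¹ * (t * r ^ (2 * m1)) * a = (a⁻¹ * t * a) * (a⁻¹ * r ^ (2 * m1) * a) := by group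
      rw [h5, hpow] at h4
      have h6 : a⁻¹ * t * a = t * (r ^ (e1 * (2 * m1)))⁻¹ := eq_mul_inv_of_mul_eq h4
      rw [h6, ← zpow_neg]
      congr 2
      ring
  have hall : ∀ g : G, ∃ m : ℤ, g * t * g⁻¹ = t * r ^ (2 * m) := fun g =>
    (key g (by rw [hgen]; trivial)).2
  -- `r` has odd order
  have hodd : Odd (orderOf r) := by
    obtain ⟨c, hc⟩ := isConj_iff.1 hs
    obtain ⟨m, hm⟩ := hall c
    rw [hc, hsr] at hm
    have h1 : r = r ^ (2 * m) := mul_left_cancel hm
    have h2 : r ^ (2 * m - 1) = 1 := by
      rw [zpow_sub, ← h1, zpow_one]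
      group
    have h3 := orderOf_dvd_iff_zpow_eq_one.2 h2
    by_contra hne
    rw [Nat.not_odd_iff_even] at hne
    obtain ⟨w, hw⟩ := hne
    obtain ⟨q, hq⟩ := h3
    rw [hw] at hq
    push_cast at hq
    have h4 : (2 * m - 1) = 2 * (w * q) := by rw [hq]; ring
    omega
  obtain ⟨c, rfl⟩ := isConj_iff.1 hx
  obtain ⟨m, hm⟩ := hall c
  rw [hm, ← mul_assoc, htt, one_mul]
  refine Odd.of_dvd_nat hodd (orderOf_dvd_of_pow_eq_one ?_)
  rw [← zpow_natCast, ← zpow_mul, mul_comm, zpow_mul, zpow_natCast, pow_orderOf_eq_one, one_zpow]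

end Defs

/-- The main theorem, by induction on the order. -/
theorem conn_all : ∀ (n : ℕ) (G : Type u) [Group G] [Finite G], Nat.card G = n → ∀ t : G,
    orderOf t = 2 → Subgroup.normalClosure ({t} : Set G) = ⊤ → ∀ x : G, IsConj t x → Conn t x := by
  intro n
  induction n using Nat.strong_induction_on with
  | _ n ih =>
    intro G _ _ hn t ht hnc x hx
    -- the subgroup generated by `t`
    obtain ⟨A, hA⟩ : ∃ A : Subgroup G, A = Subgroup.zpowers t := ⟨_, rfl⟩
    have htA : t ∈ A := hA ▸ Subgroup.mem_zpowers t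
    have hncA : Subgroup.normalClosure (A : Set G) = ⊤ := by
      rw [eq_top_iff, ← hnc]
      exact Subgroup.normalClosure_mono (by simpa using htA)
    by_cases hAtop : A = ⊤
    · -- `G` is generated by `t`
      obtain ⟨c, rfl⟩ := isConj_iff.1 hx
      have hc : c ∈ Subgroup.zpowers t := by
        rw [← hA, hAtop]; trivial
      obtain ⟨k, rfl⟩ := Subgroup.mem_zpowers_iff.1 hc
      have : t ^ k * t * (t ^ k)⁻¹ = t := by
        rw [(Commute.refl t).zpow_left k |>.eq]
        group
      rw [this]
      exact .refl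
    -- members of the family lie in the closure of the component
    have hmem : ∀ H : Subgroup G, A ≤ H → H ≠ ⊤ →
        Subgroup.normalClosure ((A.subgroupOf H : Subgroup ↥H) : Set ↥H) = ⊤ →
        H ≤ Subgroup.closure {x | Conn t x} := by
      intro H hAH hH hncH
      have htH : t ∈ H := hAH htA
      have hcard : Nat.card H < n := by
        rw [← hn]
        refine lt_of_le_of_ne (Subgroup.card_le_card_group H) ?_
        intro he
        exact hH (Subgroup.eq_top_of_card_eq H he)
      have hnc' : Subgroup.normalClosure ({(⟨t, htH⟩ : H)} : Set H) = ⊤ := by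
        rw [eq_top_iff, ← hncH]
        refine Subgroup.normalClosure_le_normal ?_
        intro a ha
        have ha' : (a : G) ∈ A := Subgroup.mem_subgroupOf.1 ha
        rw [hA] at ha'
        obtain ⟨k, hk⟩ := Subgroup.mem_zpowers_iff.1 ha'
        have : a = (⟨t, htH⟩ : H) ^ k := Subtype.ext (by simpa using hk.symm)
        rw [SetLike.mem_coe, this]
        exact Subgroup.zpow_mem _ (Subgroup.subset_normalClosure (Set.mem_singleton _)) k
      have hih := ih _ hcard H rfl (⟨t, htH⟩ : H) (by rw [Subgroup.orderOf_mk, ht]) hnc'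
      intro y hy
      have hy' : (⟨y, hy⟩ : H) ∈ Subgroup.normalClosure ({(⟨t, htH⟩ : H)} : Set H) := by
        rw [hnc']; trivial
      have hle : Subgroup.normalClosure ({(⟨t, htH⟩ : H)} : Set H) ≤
          (Subgroup.closure {x | Conn t x}).subgroupOf H := by
        refine (Subgroup.closure_le _).2 ?_
        intro z hz
        rw [Group.mem_conjugatesOfSet_iff] at hz
        obtain ⟨a, ha, hz⟩ := hz
        rw [Set.mem_singleton_iff] at ha
        subst ha
        have h5 := Conn.map (hih z hz)
        exact Subgroup.mem_subgroupOf.2 (Subgroup.subset_closure h5)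
      exact Subgroup.mem_subgroupOf.1 (hle hy')
    rcases Cfsg.Agent.Lib.Transfer.Flavell.sSup_eq_top_or_existsUnique A hncA hAtop with hY | hU
    · -- the join is everything
      have hcl : Subgroup.closure {x | Conn t x} = ⊤ := by
        rw [eq_top_iff, ← hY]
        refine sSup_le ?_
        rintro H ⟨h1, h2, h3⟩
        exact hmem H h1 h2 h3
      exact conn_of_closure ht hcl x hx
    · obtain ⟨M, ⟨hM, hAM⟩, huniq⟩ := hU
      -- a conjugate outside `M`
      have hex : ∃ s : G, IsConj t s ∧ s ∉ M := by
        by_contra hno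
        push Not at hno
        apply hM.1
        rw [eq_top_iff, ← hnc]
        refine (Subgroup.closure_le _).2 ?_
        intro z hz
        rw [Group.mem_conjugatesOfSet_iff] at hz
        obtain ⟨a, ha, hz⟩ := hz
        rw [Set.mem_singleton_iff] at ha
        subst ha
        exact hno z hz
      obtain ⟨s, hs, hsM⟩ := hex
      have hgen : Subgroup.closure ({t, s} : Set G) = ⊤ := by
        by_contra hne
        obtain ⟨L, hL, hle⟩ := (eq_top_or_exists_le_coatom _).resolve_left hne
        have htL : t ∈ L := hle (Subgroup.subset_closure (by simp))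
        have hsL : s ∈ L := hle (Subgroup.subset_closure (by simp))
        have hAL : A ≤ L := by
          rw [hA]
          exact (Subgroup.zpowers_le).2 htL
        have := huniq L ⟨hL, hAL⟩
        exact hsM (this ▸ hsL)
      have hodd := dihedral_step ht hs hgen x hx
      refine Relation.ReflTransGen.single ⟨IsConj.refl t, hx, hodd⟩

end Cfsg.Agent.Lib.OddGraph.Basic
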